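import Cfsg.Agent.H248.UF.Plane
import Cfsg.Agent.H715.IFU.ClsN
import Cfsg.Agent.H411.IFU.Cls
import Cfsg.Agent.H27.IF.PhiDec
import Cfsg.Agent.H450.Bs.BR3
import Cfsg.Agent.S2148
import Cfsg.Agent.S2149

/-!
# S5719, `PSU_4(q)`, `q` odd: hyperplanes (helper811, pieces W5a, W5b of helper838)

* `exists_neg` : the involution `-1` on a nondegenerate plane of centres is in `H`;
* `index_ge` : the index of `H ∩ SU(D)` in `SU(D)` if `H` fixes a line of the plane `D`;
* `no_three` : not all transvections with centre in a nondegenerate hyperplane are in `H`;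
* `three_top` : subgroups of small index of `SU₃`; `no_refl` : no element of the third type.
-/

set_option autoImplicit false
set_option linter.unusedSectionVars false

namespace Cfsg.Agent.H811.PU4

open Module Subgroup Cfsg Cfsg.Agent.H91.U Cfsg.Agent.H450.UF Cfsg.Agent.H450.Bs Cfsg.Agent.H209.Fxy Cfsg.Agent.H838.IF
open scoped commutatorElement

section
variable {F V : Type*} [Field F] [Fintype F] [AddCommGroup V] [Module F V] [FiniteDimensional F V] {σ : F →+* F}
  {B : V →ₛₗ[σ] V →ₗ[F] F} {H : Subgroup (V ≃ₗ[F] V)} {q : ℕ}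


theorem mem_ppv (hB : HForm B) {v u : V} : u ∈ pp B (Submodule.span F {v}) ↔ B v u = 0 := by
  rw [mem_pp_span]
  constructor
  · intro h
    exact hB.swap_zero (h v rfl)
  · rintro h z rfl
    exact hB.swap_zero h

/-- the orthogonal space of an anisotropic vector is nondegenerate -/
theorem nd_ppv (hB : HForm B) {v : V} (hv : B v v ≠ 0) :
    ∀ x ∈ pp B (Submodule.span F {v}), (∀ y ∈ pp B (Submodule.span F {v}), B x y = 0) → x = 0 := by
  intro x hx h
  apply hB.eq_zero
  intro y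
  have h1 : y - (B v y / B v v) • v ∈ pp B (Submodule.span F {v}) := by
    rw [mem_ppv hB, map_sub, smul_right, div_mul_cancel₀ _ hv, sub_self]
  have h2 := h _ h1
  rw [map_sub, smul_right, hB.swap_zero ((mem_ppv hB).1 hx), mul_zero, sub_zero] at h2
  exact h2

theorem finrank_ppv (hB : HForm B) {v : V} (hv : v ≠ 0) : finrank F (pp B (Submodule.span F {v})) + 1 = finrank F V := by
  have h1 := finrank_pp hB (Submodule.span F {v})
  rwa [finrank_span_singleton hv] at h1

/-- if an element of `H` moves the line of `v` -/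
theorem exists_fix (hB : HForm B) (hF : Fintype.card F = q ^ 2) (hV : finrank F V = 4) (hq : Odd q)
    (hH : Pk B H) {v : V} (hv : B v v ≠ 0) (h1 : ∀ c, B v c = 0 → c ≠ 0 → B c c = 0 → PP B H c)
    {h : V ≃ₗ[F] V} (hh : h ∈ H) : ∃ a : F, h v = a • v := by
  by_contra hcon
  push Not at hcon
  have hi : ∀ x y, B (h x) (h y) = B x y := (hH.le hh).2
  have hvv : B (h v) (h v) ≠ 0 := by rwa [hi]
  have hv0 : v ≠ 0 := by
    rintro rfl
    exact hv (by rw [map_zero])
  have hhv0 : h v ≠ 0 := fun e => hv0 ((LinearEquiv.map_eq_zero_iff h).1 e)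
  -- centres
  have hc : ∀ c, B (h v) c = 0 → c ≠ 0 → B c c = 0 → PP B H c := by
    intro c hc0 hc1 hc2
    have e : h (h⁻¹ c) = c := h.apply_symm_apply c
    have h2 : B v (h⁻¹ c) = 0 := by rw [← hi, e, hc0]
    have h3 : h⁻¹ c ≠ 0 := fun e' => hc1 (by rw [← e, e', map_zero])
    have h4 : B (h⁻¹ c) (h⁻¹ c) = 0 := by rw [← hi, e, hc2]
    have h5 := (h1 _ h2 h3 h4).map hh hi
    rwa [e] at h5
  -- an isotropic vector orthogonal to `h v` but not to `v`
  obtain ⟨c, hc0, hc1, hc2⟩ : ∃ c, B (h v) c = 0 ∧ B c c = 0 ∧ B v c ≠ 0 := by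
    by_contra hcon2
    push Not at hcon2
    have h2 := span_iso hB (nd_ppv hB hvv) (by have := finrank_ppv hB hhv0; omega)
    have h3 : ∀ w ∈ pp B (Submodule.span F {h v}), B v w = 0 := by
      intro w hw
      have h4 : Submodule.span F {x | x ∈ pp B (Submodule.span F {h v}) ∧ B x x = 0} ≤ LinearMap.ker (B v) :=
        Submodule.span_le.2 fun x hx => hcon2 x ((mem_ppv hB).1 hx.1) hx.2
      exact h4 (h2 hw)
    obtain ⟨w, hw⟩ : ∃ w, w = v - (B (h v) v / B (h v) (h v)) • h v := ⟨_, rfl⟩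
    have hw1 : w ∈ pp B (Submodule.span F {h v}) := by
      rw [mem_ppv hB, hw, map_sub, smul_right, div_mul_cancel₀ _ hvv, sub_self]
    have hw0 : w = 0 := by
      refine nd_ppv hB hvv w hw1 fun y hy => ?_
      rw [hw, map_sub, LinearMap.sub_apply, smul_left, h3 y hy, (mem_ppv hB).1 hy, mul_zero, sub_zero]
    have h5 : v = (B (h v) v / B (h v) (h v)) • h v := by
      rw [hw] at hw0
      exact sub_eq_zero.1 hw0
    obtain ⟨a, ha⟩ : ∃ a, a = B (h v) v / B (h v) (h v) := ⟨_, rfl⟩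
    rw [← ha] at h5
    have h6 : a ≠ 0 := by
      intro e
      rw [e, zero_smul] at h5
      exact hv0 h5
    apply hcon a⁻¹
    have h8 : a⁻¹ • v = a⁻¹ • a • h v := congrArg (fun z => a⁻¹ • z) h5
    rw [h8, smul_smul, inv_mul_cancel₀ h6, one_smul]
  have hc0' : c ≠ 0 := by
    rintro rfl
    exact hc2 (map_zero _)
  have h7 := H248.UF.On.four hB hF hq hV hH.le hv h1 hc1 hc2 (hc c hc0 hc0' hc1)
  exact hH.ne (gen hB hV.ge fun c hc0 hcc l hl g hg => h7 c trivial hc0 hcc l hl g hg)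

/-- `-1` on a nondegenerate plane of centres -/
theorem exists_neg (hB : HForm B) {P : Submodule F V} (hP : NP B P)
    (hO : On B H P) : ∃ t ∈ H, Neg B t P := by
  obtain ⟨e, he, f, hf, hee, hff, hef⟩   := Cfsg.Agent.H450.Bs.exists_hyp hB hP.nd (by rw [hP.dim])
  obtain ⟨l, hl0, hl⟩ := exists_trz hB
  have hfe : B f e = 1 := by rw [sw hB e f, hef, map_one]
  have he0 : e ≠ 0 := by
    rintro rfl
    rw [map_zero, LinearMap.zero_apply] at hef
    exact zero_ne_one hef
  have hf0 : f ≠ 0 := by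
    rintro rfl
    rw [map_zero] at hef
    exact zero_ne_one hef
  have hl' : σ l = -l := by linear_combination hl
  have hm : -l⁻¹ + σ (-l⁻¹) = 0 := by
    rw [map_neg, map_inv₀, hl', inv_neg]
    ring
  obtain ⟨x, hx⟩ := exists_tv hee l
  obtain ⟨y, hy⟩ := exists_tv hff (-l⁻¹)
  have hxH : x ∈ H := hO e he he0 hee l hl x hx
  have hyH : y ∈ H := hO f hf hf0 hff _ hm y hy
  obtain ⟨w, hw⟩ : ∃ w, w = x * y * x := ⟨_, rfl⟩
  have hwH : w ∈ H := by rw [hw]; exact mul_mem (mul_mem hxH hyH) hxH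
  have hwa : ∀ z, w z = x (y (x z)) := fun z => by rw [hw]; rfl
  have xe : x e = e := by rw [hx, hee, mul_zero, zero_smul, add_zero]
  have xf : x f = f + l • e := by rw [hx, hef, mul_one]
  have ye : y e = e - l⁻¹ • f := by rw [hy, hfe, mul_one, neg_smul, sub_eq_add_neg]
  have yf : y f = f := by rw [hy, hff, mul_zero, zero_smul, add_zero]
  have we : w e = -(l⁻¹ • f) := by
    rw [hwa, xe, ye, map_sub, map_smul, xe, xf, smul_add, smul_smul, inv_mul_cancel₀ hl0, one_smul]
    abel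
  have wf : w f = l • e := by
    rw [hwa, xf, map_add, map_smul, yf, ye, map_add, map_smul, map_sub, map_smul, xe, xf, smul_sub, smul_add, smul_add,
      smul_smul, smul_smul, smul_smul, mul_inv_cancel₀ hl0, one_smul, one_mul]
    abel
  have hwu : ∀ u ∈ pp B P, w u = u := by
    intro u hu
    have h1 : B e u = 0 := hB.swap_zero (hu e he)
    have h2 : B f u = 0 := hB.swap_zero (hu f hf)
    have h3 : x u = u := by rw [hx, h1, mul_zero, zero_smul, add_zero]
    have h4 : y u = u := by rw [hy, h2, mul_zero, zero_smul, add_zero]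
    rw [hwa, h3, h4, h3]
  have hspan : P ≤ Submodule.span F {e, f} := by
    have h1 : Submodule.span F {e, f} ≤ P := by
      rw [Submodule.span_le]
      rintro z (rfl | rfl)
      exacts [he, hf]
    have h2 : LinearIndependent F ![e, f] := li_of_not_perp hee (by rw [hef]; exact one_ne_zero)
    have h3 : finrank F (Submodule.span F {e, f}) = 2 := by
      have h4 := finrank_span_eq_card h2
      rwa [Matrix.range_cons, Matrix.range_cons, Matrix.range_empty, Set.union_empty, Set.singleton_union,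
        Fintype.card_fin] at h4
    exact (Submodule.eq_of_le_of_finrank_eq h1 (by rw [h3, hP.dim])).ge
  refine ⟨w * w, mul_mem hwH hwH, fun z hz => ?_, fun u hu => ?_⟩
  · obtain ⟨a, b, rfl⟩ := Submodule.mem_span_pair.1 (hspan hz)
    change w (w (a • e + b • f)) = _
    rw [map_add, map_smul, map_smul, we, wf, map_add, map_smul, map_smul, map_neg, map_smul, map_smul, we, wf,
      smul_smul, inv_mul_cancel₀ hl0, one_smul, smul_neg l, smul_smul, mul_inv_cancel₀ hl0, one_smul]
    simp only [smul_neg, neg_add]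
  · change w (w u) = u
    rw [hwu u hu, hwu u hu]

/-- all transvections are in `SIso B` -/
theorem on_siso (hB : HForm B) (P : Submodule F V) : On B (SIso B) P :=
  fun _ _ _ hcc _ hl _ hg => hg.mem hB hcc hl

/-- decomposition along a nondegenerate plane -/
theorem decomp (hB : HForm B) {P : Submodule F V} (hP : NP B P) (z : V) :
    ∃ a ∈ P, ∃ b ∈ pp B P, z = a + b := by
  obtain ⟨a, ha, b, hb, h⟩ := exists_decomp hB hP.nd z
  exact ⟨a, ha, b, fun w hw => hB.swap_zero (hb w hw), h⟩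

theorem np_pp (hB : HForm B) (hV : finrank F V = 4) {P : Submodule F V} (hP : NP B P) : NP B (pp B P) where
  dim := by
    have h1 := finrank_pp hB P
    rw [hP.dim] at h1
    omega
  nd x hx h := by
    apply hB.eq_zero
    intro y
    obtain ⟨a, ha, b, hb, rfl⟩ := decomp hB hP y
    rw [map_add, hx a ha, zero_add, h b hb]

theorem pp_pp (hB : HForm B) (hV : finrank F V = 4) {P : Submodule F V} (hP : NP B P) : pp B (pp B P) = P := by
  have h1 : P ≤ pp B (pp B P) := fun x hx y hy => hB.swap_zero (hy x hx)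
  refine (Submodule.eq_of_le_of_finrank_eq h1 ?_).symm
  rw [hP.dim, (np_pp hB hV (np_pp hB hV hP)).dim]

/-- the elements of `SU(P^⊥)` commute with `t` -/
theorem comm_of_neg (hB : HForm B) (hV : finrank F V = 4) {P : Submodule F V} (hP : NP B P) {t : V ≃ₗ[F] V}
    (ht : Neg B t P) {k : V ≃ₗ[F] V} (hk : k ∈ SUW B (pp B P)) : Comm k t := by
  refine ⟨1, fun z => ?_⟩
  obtain ⟨a, ha, b, hb, rfl⟩ := decomp hB hP z
  have h1 : ∀ u ∈ P, k u = u := fun u hu => hk.2 u (by rw [pp_pp hB hV hP]; exact hu)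
  have h2 : k b ∈ pp B P := fun w hw => by
    have := hk.1.2 b w
    rw [h1 w hw, hb w hw] at this
    exact this
  rw [one_smul, map_add, ht.1 a ha, ht.2 b hb, map_add, map_neg, h1 a ha, map_add, h1 a ha, map_add, ht.1 a ha,
    ht.2 _ h2]

theorem two_ne (hF : Fintype.card F = q ^ 2) (hq : Odd q) : (2 : F) ≠ 0 := by
  intro h0
  have h3 : ringChar F = 2 := by
    have h4 : ringChar F ∣ 2 := (ringChar.spec F 2).1 (by exact_mod_cast h0)
    exact (Nat.prime_dvd_prime_iff_eq (CharP.char_is_prime F _) Nat.prime_two).1 h4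
  have h4 := FiniteField.even_card_of_char_two h3
  rw [hF] at h4
  have h5 : q ^ 2 % 2 = 1 := Nat.odd_iff.1 (hq.pow)
  omega

/-- the number of lines -/
theorem card_T (hB : HForm B) (hF : Fintype.card F = q ^ 2) {n n' : F} (hn' : n' ≠ 0) :
    q ^ 2 - q - 1 ≤ Nat.card {b : F // σ b * b * n' + n ≠ 0} := by
  classical
  have hσ : ∀ b, σ b = b ^ q := sig_eq hF hB.ne_id hB.invol
  have h1 : Nat.card {b : F // σ b * b * n' + n ≠ 0} + Nat.card {b : F // ¬ (σ b * b * n' + n ≠ 0)} = q ^ 2 := by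
    rw [← hF, ← Nat.card_eq_fintype_card, ← Nat.card_sum]
    exact Nat.card_congr (Equiv.sumCompl _)
  have h2 : Nat.card {b : F // ¬ (σ b * b * n' + n ≠ 0)} ≤ q + 1 := by
    have h3 : ∀ b : {b : F // ¬ (σ b * b * n' + n ≠ 0)}, b.1 ∈ (Polynomial.nthRoots (q + 1) (-n / n')).toFinset := by
      rintro ⟨b, hb⟩
      rw [not_not, hσ] at hb
      rw [Multiset.mem_toFinset, Polynomial.mem_nthRoots (Nat.succ_pos q), eq_div_iff hn', pow_succ]
      linear_combination hb
    refine le_trans ?_ ((Multiset.toFinset_card_le _).trans (Polynomial.card_nthRoots (q + 1) (-n / n')))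
    rw [← Fintype.card_coe, ← Nat.card_eq_fintype_card]
    exact Nat.card_le_card_of_injective (fun b => (⟨b.1, h3 b⟩ : (Polynomial.nthRoots (q + 1) (-n / n')).toFinset))
      fun b b' h => Subtype.ext (congrArg (fun z : (Polynomial.nthRoots (q + 1) (-n / n')).toFinset => z.1) h)
  omega

/-- the index of `H ∩ SU(D)` if `H` fixes a line of `D` -/
theorem index_ge (hB : HForm B) (hF : Fintype.card F = q ^ 2) {v v' : V} (hv : B v v ≠ 0) (hv' : B v' v' ≠ 0)
    (hvv : B v v' = 0) (hD : NP B (Submodule.span F {v, v'})) (hfix : ∀ h ∈ H, ∃ a : F, h v = a • v) :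
    q ^ 2 - q - 1 ≤ H.relIndex (SUW B (Submodule.span F {v, v'})) := by
  have hVf : Finite V := Module.finite_of_finite F
  have hEf : Finite (V ≃ₗ[F] V) := Finite.of_injective (fun g : V ≃ₗ[F] V => (g : V → V)) DFunLike.coe_injective
  have hv'v : B v' v = 0 := hB.swap_zero hvv
  obtain ⟨D, hDd⟩ : ∃ D, D = Submodule.span F {v, v'} := ⟨_, rfl⟩
  rw [← hDd] at hD ⊢
  have hvD : v ∈ D := by rw [hDd]; exact Submodule.subset_span (Or.inl rfl)
  have hvD' : v' ∈ D := by rw [hDd]; exact Submodule.subset_span (Or.inr rfl)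
  have key : ∀ b : {b : F // σ b * b * B v' v' + B v v ≠ 0}, ∃ g ∈ SUW B D, ∃ c : F, c ≠ 0 ∧
      g v = c • (v + b.1 • v') := by
    rintro ⟨b, hb⟩
    have hN : B (v + b • v') (v + b • v') = σ b * b * B v' v' + B v v := by
      rw [quad, hvv, hv'v]
      ring
    have hfx : σ (B v v / (σ b * b * B v' v' + B v v)) = B v v / (σ b * b * B v' v' + B v v) := by
      rw [map_div₀, map_add, map_mul, map_mul, hB.invol, self_fix hB, self_fix hB]
      congr 1
      ring
    obtain ⟨c, hc0, hc⟩ := Cfsg.Agent.ClassicalGeometry.HermWitt.norm_surj σ hB.ne_id hB.invol _ hfx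
      (div_ne_zero hv hb)
    have he : B v v = B (c • (v + b • v')) (c • (v + b • v')) := by
      rw [smul_left, smul_right, hN, ← mul_assoc, mul_comm (σ c) c, hc, div_mul_cancel₀ _ hb]
    obtain ⟨g, hg, hg1, hg2⟩ := H248.UF.plane_trans hB hF hD (on_siso hB D) hvD
      (D.smul_mem c (D.add_mem hvD (D.smul_mem b hvD'))) hv he
    exact ⟨g, ⟨hg, hg2⟩, c, hc0, hg1⟩
  choose g hg c hc0 hgc using key
  refine (card_T hB hF (n := B v v) hv').trans ?_
  refine Nat.card_le_card_of_injective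
    (fun b => (QuotientGroup.mk (⟨g b, hg b⟩ : SUW B D) : SUW B D ⧸ H.subgroupOf (SUW B D))) ?_
  intro b b' hbb
  have h1 := QuotientGroup.eq.1 hbb
  rw [Subgroup.mem_subgroupOf] at h1
  obtain ⟨a, ha⟩ := hfix _ h1
  have h2 : g b' v = a • g b v := by
    have h3 : (g b)⁻¹ (g b' v) = a • v := ha
    have h4 : g b ((g b)⁻¹ (g b' v)) = g b' v := (g b).apply_symm_apply _
    rw [← h4, h3, map_smul]
  rw [hgc, hgc, smul_smul] at h2
  -- pair with `v` and `v'`
  have h5 := congrArg (B v) h2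
  have h6 := congrArg (B v') h2
  rw [smul_right, smul_right, map_add, smul_right, map_add, smul_right, hvv, mul_zero, mul_zero, add_zero] at h5
  rw [smul_right, smul_right, map_add, smul_right, map_add, smul_right, hv'v, zero_add, zero_add] at h6
  have h7 : c b' = a * c b := mul_right_cancel₀ hv h5
  rw [← h7] at h6
  have h8 := mul_left_cancel₀ (hc0 b') h6
  exact Subtype.ext (mul_right_cancel₀ hv' h8).symm

theorem arith_five {q r : ℕ} (h5 : 5 ≤ q) (h : q ^ 2 - q - 1 ≤ r)
    (h1 : r ^ 5 < q ^ 4 * (q ^ 2 + 1) * (q ^ 2 - q + 1)) : False := by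
  have hqq : q ≤ q ^ 2 := by nlinarith
  obtain ⟨X, hX⟩ : ∃ X, X = q ^ 2 - q - 1 := ⟨_, rfl⟩
  have hX1 : q ^ 2 = X + q + 1 := by
    have : q + 1 ≤ q ^ 2 := by nlinarith
    omega
  have h2 : X ^ 5 < q ^ 4 * (q ^ 2 + 1) * (q ^ 2 - q + 1) := lt_of_le_of_lt (Nat.pow_le_pow_left (hX ▸ h) 5) h1
  have h3 : q ^ 2 - q + 1 = X + 2 := by omega
  rw [h3] at h2
  have h4 : 19 * q ≤ 5 * X + 0 := by nlinarith
  have h6 : 19 * (q ^ 2) ≤ 25 * X := by
    have : 19 ≤ X := by nlinarith
    omega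
  have hX19 : 19 ≤ X := by nlinarith
  have e : q ^ 4 = q ^ 2 * q ^ 2 := by ring
  have h7 : 361 * q ^ 4 ≤ 625 * X ^ 2 := by
    rw [e]
    nlinarith
  have h8 : 19 * (q ^ 2 + 1) ≤ 26 * X := by omega
  have h9 : 19 * (X + 2) ≤ 21 * X := by omega
  have h10 : 361 * 19 * 19 * (q ^ 4 * (q ^ 2 + 1) * (X + 2)) ≤ 625 * 26 * 21 * X ^ 4 := by
    calc 361 * 19 * 19 * (q ^ 4 * (q ^ 2 + 1) * (X + 2))
        = (361 * q ^ 4) * (19 * (q ^ 2 + 1)) * (19 * (X + 2)) := by ring
      _ ≤ (625 * X ^ 2) * (26 * X) * (21 * X) := Nat.mul_le_mul (Nat.mul_le_mul h7 h8) h9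
      _ = 625 * 26 * 21 * X ^ 4 := by ring
  have h11 : 361 * 19 * 19 * X ^ 5 < 625 * 26 * 21 * X ^ 4 := lt_of_lt_of_le (Nat.mul_lt_mul_of_pos_left h2 (by norm_num)) h10
  have h12 : X ^ 5 = X * X ^ 4 := by ring
  have h13 : 19 * X ^ 4 ≤ X ^ 5 := by
    rw [h12]
    exact Nat.mul_le_mul_right _ hX19
  omega

/-- W5a: all transvections with centre in a nondegenerate hyperplane -/
theorem no_three (hB : HForm B) (hF : Fintype.card F = q ^ 2) (hV : finrank F V = 4) (hq : Odd q) (h5 : 5 ≤ q)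
    (hH : Pk B H) {v : V} (hv : B v v ≠ 0) (h1 : ∀ c, B v c = 0 → c ≠ 0 → B c c = 0 → PP B H c) : False := by
  have h2 := two_ne hF hq
  have hv0 : v ≠ 0 := by
    rintro rfl
    exact hv (by rw [map_zero])
  have hfix : ∀ h ∈ H, ∃ a : F, h v = a • v := fun h hh => exists_fix hB hF hV hq hH hv h1 hh
  -- `v'`
  obtain ⟨e, he, f, hf, hee, hff, hef⟩ := Cfsg.Agent.H450.Bs.exists_hyp hB (nd_ppv hB hv)
    (by have := finrank_ppv hB hv0; omega)
  have hfe : B f e = 1 := by rw [sw hB e f, hef, map_one]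
  obtain ⟨v', hv'⟩ : ∃ v', v' = e + f := ⟨_, rfl⟩
  have hvv : B v v' = 0 := by rw [hv', map_add, (mem_ppv hB).1 he, (mem_ppv hB).1 hf, add_zero]
  have hvv' : B v' v = 0 := hB.swap_zero hvv
  have hn' : B v' v' ≠ 0 := by
    rw [hv', map_add, map_add, LinearMap.add_apply, LinearMap.add_apply, hee, hff, hef, hfe]
    intro e0
    apply h2
    linear_combination e0
  have hli : LinearIndependent F ![v, v'] := by
    rw [LinearIndependent.pair_iff' hv0]
    rintro a rfl
    rw [smul_right] at hvv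
    rcases mul_eq_zero.1 hvv with h3 | h3
    · rw [h3, zero_smul, map_zero] at hn'
      exact hn' rfl
    · exact hv h3
  have hD : NP B (Submodule.span F {v, v'}) := by
    refine ⟨?_, fun x hx h => ?_⟩
    · have h4 := finrank_span_eq_card hli
      rwa [Matrix.range_cons, Matrix.range_cons, Matrix.range_empty, Set.union_empty, Set.singleton_union,
        Fintype.card_fin] at h4
    · obtain ⟨a, b, rfl⟩ := Submodule.mem_span_pair.1 hx
      have h3 := h v (Submodule.subset_span (Or.inl rfl))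
      have h4 := h v' (Submodule.subset_span (Or.inr rfl))
      rw [map_add, LinearMap.add_apply, smul_left, smul_left, hvv', mul_zero, add_zero] at h3
      rw [map_add, LinearMap.add_apply, smul_left, smul_left, hvv, mul_zero, zero_add] at h4
      rw [(map_eq_zero σ).1 ((mul_eq_zero.1 h3).resolve_right hv), (map_eq_zero σ).1 ((mul_eq_zero.1 h4).resolve_right hn'),
        zero_smul, zero_smul, add_zero]
  -- the plane
  obtain ⟨P, hPd⟩ : ∃ P, P = pp B (Submodule.span F {v, v'}) := ⟨_, rfl⟩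
  have hP : NP B P := by rw [hPd]; exact np_pp hB hV hD
  have hPD : pp B P = Submodule.span F {v, v'} := by rw [hPd]; exact pp_pp hB hV hD
  have hO : On B H P := by
    intro c hc hc0 hcc
    rw [hPd] at hc
    exact h1 c (hB.swap_zero (hc v (Submodule.subset_span (Or.inl rfl)))) hc0 hcc
  obtain ⟨t, ht, htn⟩ := exists_neg hB hP hO
  have hvP : v ∈ pp B P := by rw [hPD]; exact Submodule.subset_span (Or.inl rfl)
  have hs : ¬ Scal t := by
    rintro ⟨a, ha⟩
    have h3 := ha v
    rw [htn.2 v hvP] at h3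
    have ha1 : a = 1 := by
      have h4 : (1 - a) • v = 0 := by rw [sub_smul, one_smul, ← h3, sub_self]
      exact (sub_eq_zero.1 ((smul_eq_zero.1 h4).resolve_right hv0)).symm
    obtain ⟨x, hx, hx0⟩ : ∃ x ∈ P, x ≠ 0 := by
      apply Submodule.exists_mem_ne_zero_of_ne_bot
      rintro hbot
      have h4 := hP.dim
      rw [hbot, finrank_bot] at h4
      omega
    have h4 := ha x
    rw [htn.1 x hx, ha1, one_smul] at h4
    have h6 : (2 : F) • x = 0 := by
      rw [two_smul]
      nth_rewrite 1 [← h4]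
      exact neg_add_cancel x
    exact hx0 ((smul_eq_zero.1 h6).resolve_left h2)
  have htt : Scal (t * t) := by
    refine ⟨1, fun z => ?_⟩
    obtain ⟨a, ha, b, hb, rfl⟩ := decomp hB hP z
    change t (t (a + b)) = _
    rw [map_add, htn.1 a ha, htn.2 b hb, map_add, map_neg, htn.1 a ha, htn.2 b hb, neg_neg, one_smul]
  have hlt := hH.e2 t ht hs htt (SUW B (pp B P)) (fun k hk => hk.1) (fun k hk => comm_of_neg hB hV hP htn hk)
  rw [hPD] at hlt
  exact arith_five h5 (index_ge hB hF hv hn' hvv hD hfix) (hlt.trans_le (H715.IFU.cls_neg hB hF hV hP htn))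

/-! ### W5b -/

omit [Fintype F] [FiniteDimensional F V] in
theorem arith_cube {q r : ℕ} (h5 : 5 ≤ q) (h1 : r ^ 5 < (q ^ 4 + 1) * (q ^ 2 + 1)) :
    r < q ^ 3 + 1 ∧ (q = 5 → r < 50) := by
  constructor
  · by_contra hcon
    push Not at hcon
    have h2 : (q ^ 3 + 1) ^ 5 ≤ r ^ 5 := Nat.pow_le_pow_left hcon 5
    have h3 : (q ^ 4 + 1) * (q ^ 2 + 1) ≤ (q ^ 3 + 1) ^ 5 := by
      have h4 : q ^ 4 + 1 ≤ (q ^ 3 + 1) ^ 2 := by
        have : q ^ 4 ≤ q ^ 6 := Nat.pow_le_pow_right (by omega) (by norm_num)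
        nlinarith
      have h6 : q ^ 2 + 1 ≤ (q ^ 3 + 1) ^ 3 := by
        have h7 : q ^ 2 ≤ q ^ 3 := Nat.pow_le_pow_right (by omega) (by norm_num)
        have h8 : q ^ 3 + 1 ≤ (q ^ 3 + 1) ^ 3 := Nat.le_self_pow (by norm_num) _
        omega
      calc _ ≤ (q ^ 3 + 1) ^ 2 * (q ^ 3 + 1) ^ 3 := Nat.mul_le_mul h4 h6
        _ = _ := by ring
    omega
  · rintro rfl
    by_contra hcon
    push Not at hcon
    have h2 : 50 ^ 5 ≤ r ^ 5 := Nat.pow_le_pow_left hcon 5
    omega

/-- subgroups of small index of the special isometry group of a space of dimension three -/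
theorem three_top (hB : HForm B) (hF : Fintype.card F = q ^ 2) {W : Submodule F V}
    (hW : ∀ x ∈ W, (∀ y ∈ W, B x y = 0) → x = 0) (h3 : finrank F W = 3) (h5 : 5 ≤ q)
    {Y : Subgroup (SIso (res B W))} (hY : Y.index ^ 5 < (q ^ 4 + 1) * (q ^ 2 + 1)) : Y = ⊤ := by
  obtain ⟨φ, hφ⟩ : ∃ φ : W ≃ₗ[F] (Fin 3 → F), ∀ v w, res B W v w = hermForm 3 F q (φ w) (φ v) := by
    rw [← h3]
    exact exists_model hF (hform_res hB hW)
  let e : SIso (res B W) ≃* SU 3 F q := (sisoEquiv φ (B' := Cfsg.Agent.H77.Witt.formB hF 3) fun v w => by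
    rw [Cfsg.Agent.H77.Witt.formB_apply, hφ]).trans (toIso hF).symm
  obtain ⟨Y', hY'⟩ : ∃ Y', Y' = Y.map e.toMonoidHom := ⟨_, rfl⟩
  have hidx : Y'.index ≤ Y.index := by
    have : Finite (SIso (res B W)) := by
      have : Finite V := Module.finite_of_finite F
      have : Finite (W ≃ₗ[F] W) := Finite.of_injective (fun g : W ≃ₗ[F] W => (g : W → W)) DFunLike.coe_injective
      infer_instance
    rw [hY']
    exact Nat.le_of_dvd (Nat.pos_of_ne_zero Subgroup.index_ne_zero_of_finite) (Subgroup.index_map_dvd Y e.surjective)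
  have hlt := arith_cube h5 hY
  -- the image in `PSU`
  have hZ : Y'.map (QuotientGroup.mk' (Subgroup.center (SU 3 F q))) = ⊤ := by
    by_contra hne
    have h1 : (Y'.map (QuotientGroup.mk' (Subgroup.center (SU 3 F q)))).index ≤ Y.index := by
      refine (Nat.le_of_dvd (Nat.pos_of_ne_zero ?_)
        (Subgroup.index_map_dvd Y' (QuotientGroup.mk'_surjective _))).trans hidx
      exact Subgroup.index_ne_zero_of_finite
    by_cases hq5 : q = 5
    · subst hq5
      have h2 := (S2149.result (F := F) (by rw [hF]; norm_num)).1 _ hne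
      have h3 := hlt.2 rfl
      omega
    · have h2 := (S2148.result q hF (by omega) hq5).1 _ hne
      omega
  have hYt : Y' = ⊤ := by
    have hperf : commutator (SU 3 F q) = ⊤ :=
      Cfsg.Agent.LieClassical.HermPerfect.commutator_SU_eq_top hF (by omega) (by omega)
    rw [eq_top_iff, ← hperf, commutator_def, Subgroup.commutator_le]
    have key : ∀ g : SU 3 F q, ∃ y ∈ Y', ∃ z ∈ Subgroup.center (SU 3 F q), g = y * z := by
      intro g
      have h1 : QuotientGroup.mk' (Subgroup.center (SU 3 F q)) g ∈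
          Y'.map (QuotientGroup.mk' (Subgroup.center (SU 3 F q))) := by rw [hZ]; trivial
      obtain ⟨y, hy, hyg⟩ := h1
      refine ⟨y, hy, y⁻¹ * g, QuotientGroup.eq.1 hyg, by group⟩
    intro g _ g' _
    obtain ⟨y, hy, z, hz, rfl⟩ := key g
    obtain ⟨y', hy', z', hz', rfl⟩ := key g'
    rw [Subgroup.mem_center_iff] at hz hz'
    have h1 : ⁅y * z, y' * z'⁆ = ⁅y, y'⁆ := by
      rw [commutatorElement_def, commutatorElement_def, mul_inv_rev, mul_inv_rev]
      have e1 : z * (y' * z') = y' * z' * z := (hz _).symm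
      have e2 : z' * (z * (z⁻¹ * y⁻¹)) = z * (z⁻¹ * y⁻¹) * z' := (hz' _).symm
      calc y * z * (y' * z') * (z⁻¹ * y⁻¹) * (z'⁻¹ * y'⁻¹)
          = y * (z * (y' * z')) * (z⁻¹ * y⁻¹) * (z'⁻¹ * y'⁻¹) := by group
        _ = y * (y' * z' * z) * (z⁻¹ * y⁻¹) * (z'⁻¹ * y'⁻¹) := by rw [e1]
        _ = y * y' * (z' * (z * (z⁻¹ * y⁻¹))) * (z'⁻¹ * y'⁻¹) := by group
        _ = y * y' * (z * (z⁻¹ * y⁻¹) * z') * (z'⁻¹ * y'⁻¹) := by rw [e2]
        _ = y * y' * y⁻¹ * y'⁻¹ := by group
    rw [h1]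
    exact mul_mem (mul_mem (mul_mem hy hy') (inv_mem hy)) (inv_mem hy')
  rw [eq_top_iff]
  intro g _
  have h1 : e g ∈ Y' := by rw [hYt]; trivial
  rw [hY'] at h1
  obtain ⟨y, hy, hyg⟩ := h1
  have : y = g := e.injective hyg
  rw [← this]
  exact hy

/-- W5b: the third type -/
theorem no_refl (hB : HForm B) (hF : Fintype.card F = q ^ 2) (hV : finrank F V = 4) (hq : Odd q) (h5 : 5 ≤ q)
    (hH : Pk B H) {t : V ≃ₗ[F] V} (ht : t ∈ H) {v : V} (hv : B v v ≠ 0) {m : F} (hm : m ≠ 0) (h1 : t v = -(m • v))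
    (h2 : ∀ u, B v u = 0 → t u = m • u) : False := by
  have h20 := two_ne hF hq
  have hv0 : v ≠ 0 := by
    rintro rfl
    exact hv (by rw [map_zero])
  obtain ⟨W, hWd⟩ : ∃ W, W = pp B (Submodule.span F {v}) := ⟨_, rfl⟩
  have hW : ∀ x ∈ W, (∀ y ∈ W, B x y = 0) → x = 0 := by rw [hWd]; exact nd_ppv hB hv
  have hWm : ∀ u, u ∈ W ↔ B v u = 0 := fun u => by rw [hWd]; exact mem_ppv hB
  have h3 : finrank F W = 3 := by
    have := finrank_ppv hB hv0
    rw [← hWd] at this
    omega
  have hdec : ∀ z : V, ∃ a : F, ∃ w ∈ W, z = a • v + w := fun z =>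
    ⟨B v z / B v v, z - (B v z / B v v) • v, (hWm _).2 (by rw [map_sub, smul_right, div_mul_cancel₀ _ hv, sub_self]),
      by abel⟩
  have hpv : v ∈ pp B W := fun u hu => (hWm u).1 hu
  -- the group
  let f : SIso (res B W) →* (V ≃ₗ[F] V) := (SIso B).subtype.comp (H27.IF.e1 hB hW)
  have hfW : ∀ (g : SIso (res B W)) (w : V) (hw : w ∈ W), f g w = g.1 ⟨w, hw⟩ := fun g w hw => H27.IF.e1_W hB hW g hw
  have hfv : ∀ g : SIso (res B W), f g v = v := fun g => H27.IF.e1_pp hB hW g hpv
  have hns : ¬ Scal t := by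
    rintro ⟨a, ha⟩
    have e1 := ha v
    rw [h1] at e1
    have e2 : (a + m) • v = 0 := by rw [add_smul, ← e1]; exact neg_add_cancel _
    have e3 : a = -m := eq_neg_of_add_eq_zero_left ((smul_eq_zero.1 e2).resolve_right hv0)
    obtain ⟨x, hx, hx0⟩ : ∃ x ∈ W, x ≠ 0 := by
      apply Submodule.exists_mem_ne_zero_of_ne_bot
      rintro hbot
      rw [hbot, finrank_bot] at h3
      omega
    have e4 := ha x
    rw [h2 x ((hWm x).1 hx), e3] at e4
    have e5 : (2 * m) • x = 0 := by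
      rw [two_mul, add_smul]
      nth_rewrite 1 [e4]
      rw [neg_smul]
      exact neg_add_cancel _
    exact (mul_ne_zero h20 hm) ((smul_eq_zero.1 e5).resolve_right hx0)
  have htt : Scal (t * t) := by
    refine ⟨m * m, fun z => ?_⟩
    obtain ⟨a, w, hw, rfl⟩ := hdec z
    change t (t (a • v + w)) = _
    rw [map_add, map_smul, h1, h2 w ((hWm w).1 hw), map_add, map_smul, map_neg, map_smul, map_smul, h1,
      h2 w ((hWm w).1 hw), smul_add, smul_neg m, neg_neg, smul_smul, smul_smul, smul_smul, smul_smul]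
    congr 2
    ring
  have hlt := hH.e2 t ht hns htt f.range (by
    rintro _ ⟨g, rfl⟩
    exact (H27.IF.e1 hB hW g).2) (by
    rintro _ ⟨g, rfl⟩
    refine ⟨1, fun z => ?_⟩
    obtain ⟨a, w, hw, rfl⟩ := hdec z
    have hgw : B v (f g w) = 0 := by
      rw [hfW g w hw]
      exact (hWm _).1 (g.1 ⟨w, hw⟩).2
    rw [one_smul, map_add t, map_smul t, h1, h2 w ((hWm w).1 hw), map_add (f g), map_smul (f g), map_neg (f g),
      map_smul (f g), map_smul (f g), hfv, map_add (f g), map_smul (f g), hfv, map_add t, map_smul t, h1, h2 _ hgw])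
  have hlt2 := hlt.trans_le (H411.IFU.cls_pt hB hF hV hv (a := -m) (b := m) (by rw [h1, neg_smul]) h2)
  rw [← Subgroup.index_comap] at hlt2
  have htop := three_top hB hF hW h3 h5 hlt2
  refine no_three hB hF hV hq h5 hH hv fun c hvc hc0 hcc l hl g hg => ?_
  have hcW := (hWm c).2 hvc
  obtain ⟨g', hg'⟩ := exists_tv (B := res B W) (c := ⟨c, hcW⟩) hcc l
  have hg'm : g' ∈ SIso (res B W) := hg'.mem (hform_res hB hW) hcc hl
  have e1 : f ⟨g', hg'm⟩ = g := by
    ext z
    obtain ⟨a, w, hw, rfl⟩ := hdec z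
    rw [map_add, map_smul, hfv, hfW _ w hw]
    change a • v + ((g' ⟨w, hw⟩ : W) : V) = _
    rw [hg', hg, map_add, smul_right, hB.swap_zero hvc, mul_zero, zero_add]
    change a • v + (w + (l * B c w) • c) = _
    rw [add_assoc]
  have h6 : (⟨g', hg'm⟩ : SIso (res B W)) ∈ H.comap f := by rw [htop]; trivial
  rw [← e1]
  exact h6

end

end Cfsg.Agent.H811.PU4
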